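import Mathlib

/-!
A finite abelian group of odd order carrying additive endomorphisms `I`, `J` with
`I² = J² = -1` and `IJ = -JI` (a fixed-point-free quaternion action) has square order.
-/

set_option autoImplicit false

namespace Cfsg.Agent.Lib.Helper71

universe u

/-- restriction of an additive endomorphism to an invariant subgroup -/
def restrictEnd {N : Type u} [AddCommGroup N] (I : N →+ N) (S : AddSubgroup N)
    (h : ∀ x ∈ S, I x ∈ S) : S →+ S :=
  (I.comp S.subtype).codRestrict S (fun x => h x.1 x.2)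

theorem restrictEnd_coe {N : Type u} [AddCommGroup N] (I : N →+ N) (S : AddSubgroup N)
    (h : ∀ x ∈ S, I x ∈ S) (x : S) : ((restrictEnd I S h x : S) : N) = I x := rfl

/-- the `p`-torsion case: eigenspaces of `u = aI + bJ` with `a² + b² = -1` -/
theorem isSquare_card_of_quat_torsion {V : Type u} [AddCommGroup V] [Finite V] (p : ℕ)
    [hp : Fact p.Prime] (hp2 : p ≠ 2) (hpV : ∀ x : V, p • x = 0) (I J : V →+ V)
    (hI : ∀ x, I (I x) = -x) (hJ : ∀ x, J (J x) = -x) (hIJ : ∀ x, I (J x) = -J (I x)) :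
    IsSquare (Nat.card V) := by
  obtain ⟨a, b, hab⟩ := ZMod.sq_add_sq p (-1)
  have hdvd : (p : ℤ) ∣ (a.val : ℤ) ^ 2 + (b.val : ℤ) ^ 2 + 1 := by
    rw [← ZMod.intCast_zmod_eq_zero_iff_dvd]
    push_cast
    rw [ZMod.natCast_zmod_val, ZMod.natCast_zmod_val, hab]; ring
  obtain ⟨A, hA⟩ : ∃ A : ℤ, A = a.val := ⟨_, rfl⟩
  obtain ⟨B, hB⟩ : ∃ B : ℤ, B = b.val := ⟨_, rfl⟩
  rw [← hA, ← hB] at hdvd
  have hkill : ∀ x : V, (A ^ 2 + B ^ 2 + 1) • x = 0 := by
    intro x
    obtain ⟨c, hc⟩ := hdvd
    rw [hc, mul_comm, mul_smul, natCast_zsmul, hpV, smul_zero]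
  let u : V →+ V := A • I + B • J
  have hu : ∀ x, u x = A • I x + B • J x := fun x => rfl
  have hJI : ∀ x, J (I x) = -I (J x) := by
    intro x; rw [hIJ, neg_neg]
  have huu : ∀ x, u (u x) = x := by
    intro x
    rw [hu, hu]
    simp only [map_add, map_zsmul, hI, hJ, hIJ]
    have e : A • (A • -x + B • -J (I x)) + B • (A • J (I x) + B • -x)
        = x - (A ^ 2 + B ^ 2 + 1) • x := by module
    rw [e, hkill, sub_zero]
  let k : V →+ V := I.comp J
  have hk : ∀ x, k x = I (J x) := fun x => rfl
  have hkk : ∀ x, k (k x) = -x := by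
    intro x
    rw [hk, hk, hJI, map_neg, hI, neg_neg, hJ]
  have hku : ∀ x, u (k x) = -k (u x) := by
    intro x
    rw [hk, hk, hu, hu]
    simp only [map_add, map_zsmul, hI, hJ, hJI, map_neg, neg_neg]
    module
  have hkinj : Function.Injective k := by
    intro x y hxy
    have := congrArg k hxy
    rw [hkk, hkk] at this
    exact neg_injective this
  -- the odd prime
  obtain ⟨c, hc⟩ : ∃ c, p = 2 * c + 1 := by
    rcases hp.out.eq_two_or_odd' with h | h
    · exact absurd h hp2
    · exact h
  have hhalf : ∀ x : V, (c + 1) • (x + x) = x := by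
    intro x
    have h1 : (c + 1) • (x + x) = p • x + x := by
      rw [hc]; module
    rw [h1, hpV, zero_add]
  have htors : ∀ w : V, w = -w → w = 0 := by
    intro w hw
    have h1 : w + w = 0 := by
      nth_rewrite 1 [hw]; exact neg_add_cancel w
    have := hhalf w
    rw [h1, smul_zero] at this
    exact this.symm
  let Vp : AddSubgroup V := (u - AddMonoidHom.id V).ker
  let Vm : AddSubgroup V := (u + AddMonoidHom.id V).ker
  have hVp : ∀ x, x ∈ Vp ↔ u x = x := by
    intro x
    simp only [Vp, AddMonoidHom.mem_ker, AddMonoidHom.sub_apply, AddMonoidHom.id_apply, sub_eq_zero]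
  have hVm : ∀ x, x ∈ Vm ↔ u x = -x := by
    intro x
    simp only [Vm, AddMonoidHom.mem_ker, AddMonoidHom.add_apply, AddMonoidHom.id_apply,
      add_eq_zero_iff_eq_neg]
  have h1 : Nat.card Vp ≤ Nat.card Vm := by
    apply Nat.card_le_card_of_injective
      (fun x : Vp => (⟨k x.1, by rw [hVm, hku, (hVp x.1).mp x.2]⟩ : Vm))
    intro x y hxy
    exact Subtype.ext (hkinj (congrArg Subtype.val hxy))
  have h2 : Nat.card Vm ≤ Nat.card Vp := by
    apply Nat.card_le_card_of_injective
      (fun x : Vm => (⟨k x.1, by rw [hVp, hku, (hVm x.1).mp x.2, map_neg, neg_neg]⟩ : Vp))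
    intro x y hxy
    exact Subtype.ext (hkinj (congrArg Subtype.val hxy))
  have h3 : Nat.card V = Nat.card (Vp × Vm) := by
    symm
    apply Nat.card_eq_of_bijective (fun z : Vp × Vm => (z.1.1 + z.2.1 : V))
    constructor
    · rintro ⟨⟨x, hx⟩, ⟨y, hy⟩⟩ ⟨⟨x', hx'⟩, ⟨y', hy'⟩⟩ h
      simp only at h
      rw [hVp] at hx hx'
      rw [hVm] at hy hy'
      have hw : x - x' = y' - y := by
        rw [sub_eq_sub_iff_add_eq_add, h, add_comm]
      have hw0 : x - x' = 0 := by
        apply htors
        have e1 : u (x - x') = x - x' := by rw [map_sub, hx, hx']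
        have e2 : u (x - x') = -(x - x') := by rw [hw, map_sub, hy, hy']; abel
        rw [← e2, e1]
      have hxx : x = x' := sub_eq_zero.mp hw0
      have hyy : y = y' := by
        rw [hw0] at hw
        exact (sub_eq_zero.mp hw.symm).symm
      subst hxx hyy
      rfl
    · intro x
      refine ⟨(⟨(c + 1) • (x + u x), ?_⟩, ⟨(c + 1) • (x - u x), ?_⟩), ?_⟩
      · rw [hVp, map_nsmul, map_add, huu, add_comm (u x) x]
      · rw [hVm, map_nsmul, map_sub, huu, ← smul_neg, neg_sub]
      · show (c + 1) • (x + u x) + (c + 1) • (x - u x) = x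
        rw [← smul_add]
        have : x + u x + (x - u x) = x + x := by abel
        rw [this, hhalf]
  rw [h3, Nat.card_prod, le_antisymm h2 h1]
  exact ⟨_, rfl⟩

theorem isSquare_card_of_quat_aux : ∀ (n : ℕ) (N : Type u) [AddCommGroup N] [Finite N]
    (I J : N →+ N), (∀ x, I (I x) = -x) → (∀ x, J (J x) = -x) → (∀ x, I (J x) = -J (I x)) →
    Odd (Nat.card N) → Nat.card N = n → IsSquare n := by
  intro n
  induction n using Nat.strong_induction_on with
  | _ n ih =>
    intro N _ _ I J hI hJ hIJ hodd hn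
    by_cases h1 : n = 1
    · rw [h1]; exact ⟨1, rfl⟩
    obtain ⟨p, hp, hpn⟩ := Nat.exists_prime_and_dvd h1
    have : Fact p.Prime := ⟨hp⟩
    have hp2 : p ≠ 2 := by
      rintro rfl
      rw [← hn] at hpn
      exact (Nat.not_even_iff_odd.mpr hodd) (even_iff_two_dvd.mpr hpn)
    let f : N →+ N := nsmulAddMonoidHom p
    have hf : ∀ x, f x = p • x := fun x => rfl
    have hIK : ∀ x ∈ f.ker, I x ∈ f.ker := by
      intro x hx
      rw [AddMonoidHom.mem_ker, hf] at hx ⊢
      rw [← map_nsmul, hx, map_zero]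
    have hJK : ∀ x ∈ f.ker, J x ∈ f.ker := by
      intro x hx
      rw [AddMonoidHom.mem_ker, hf] at hx ⊢
      rw [← map_nsmul, hx, map_zero]
    have hIR : ∀ x ∈ f.range, I x ∈ f.range := by
      rintro _ ⟨y, rfl⟩
      exact ⟨I y, by rw [hf, hf, map_nsmul]⟩
    have hJR : ∀ x ∈ f.range, J x ∈ f.range := by
      rintro _ ⟨y, rfl⟩
      exact ⟨J y, by rw [hf, hf, map_nsmul]⟩
    have hcard : Nat.card f.ker * Nat.card f.range = Nat.card N := by
      rw [← AddSubgroup.index_ker]
      exact AddSubgroup.card_mul_index f.ker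
    have hK : IsSquare (Nat.card f.ker) := by
      apply isSquare_card_of_quat_torsion p hp2 _ (restrictEnd I f.ker hIK)
        (restrictEnd J f.ker hJK)
      · intro x; apply Subtype.ext; rw [restrictEnd_coe, restrictEnd_coe, hI]; rfl
      · intro x; apply Subtype.ext; rw [restrictEnd_coe, restrictEnd_coe, hJ]; rfl
      · intro x; apply Subtype.ext; rw [restrictEnd_coe, restrictEnd_coe, hIJ]; rfl
      · intro x
        apply Subtype.ext
        have := x.2
        rw [AddMonoidHom.mem_ker, hf] at this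
        rw [AddSubgroup.coe_nsmul, this]; rfl
    have hKne : 1 < Nat.card f.ker := by
      obtain ⟨x, hx⟩ := exists_prime_addOrderOf_dvd_card' (G := N) p (hn ▸ hpn)
      have hx0 : x ≠ 0 := by
        rintro rfl
        rw [addOrderOf_zero] at hx
        exact hp.one_lt.ne hx
      have hxK : x ∈ f.ker := by
        rw [AddMonoidHom.mem_ker, hf, ← hx]; exact addOrderOf_nsmul_eq_zero x
      rw [Finite.one_lt_card_iff_nontrivial]
      exact ⟨⟨x, hxK⟩, 0, fun h => hx0 (congrArg Subtype.val h)⟩
    have hRlt : Nat.card f.range < n := by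
      rw [← hn, ← hcard]
      have : 0 < Nat.card f.range := Nat.card_pos
      nlinarith
    have hR : IsSquare (Nat.card f.range) := by
      apply ih _ hRlt f.range (restrictEnd I f.range hIR) (restrictEnd J f.range hJR)
      · intro x; apply Subtype.ext; rw [restrictEnd_coe, restrictEnd_coe, hI]; rfl
      · intro x; apply Subtype.ext; rw [restrictEnd_coe, restrictEnd_coe, hJ]; rfl
      · intro x; apply Subtype.ext; rw [restrictEnd_coe, restrictEnd_coe, hIJ]; rfl
      · exact Odd.of_dvd_nat hodd (Dvd.intro_left _ hcard)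
      · rfl
    rw [← hn, ← hcard]
    exact hK.mul hR

/-- A finite abelian group of odd order with additive endomorphisms `I`, `J` such that
`I² = J² = -1` and `IJ = -JI` has square order. -/
theorem isSquare_card_of_quat {N : Type u} [AddCommGroup N] [Finite N] (I J : N →+ N)
    (hI : ∀ x, I (I x) = -x) (hJ : ∀ x, J (J x) = -x) (hIJ : ∀ x, I (J x) = -J (I x))
    (hodd : Odd (Nat.card N)) : IsSquare (Nat.card N) :=
  isSquare_card_of_quat_aux _ N I J hI hJ hIJ hodd rfl

end Cfsg.Agent.Lib.Helper71
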