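import Mathlib
import Cfsg.Prelude.Def_Solvable
import Cfsg.Agent.Lib.Lead.Frobenius
import Cfsg.Agent.Lib.Helper71.Frob
import Cfsg.Agent.Lib.Helper71.FrobKernel
import Cfsg.Agent.Lib.Helper71.QuatSquare
import Cfsg.Agent.Lib.Helper13.SemiReg

/-!
Frobenius groups, part 2: size of the kernel, construction from a fixed-point-free action with
control of the kernel size, and kernels acted on by a quaternion group have square order.
-/

set_option autoImplicit false

namespace Cfsg.Agent.Lib.Helper71

open scoped Pointwise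

/-- The Frobenius kernel has as many elements as the index of the complement. -/
theorem card_frobeniusKernel {G : Type*} [Group G] [Finite G] (H : Subgroup G)
    (hH : Cfsg.IsFrobeniusComplement H) : Nat.card (Cfsg.frobeniusKernel H) = H.index := by
  obtain ⟨N, hN, -, -⟩ := Lead.frobenius_kernel_subgroup H hH
  rw [← hN]
  exact card_kernel_eq_index hN.symm

/-- Transport to `Type`, keeping track of the index. -/
theorem exists_small_frobeniusComplement_index {L0 : Type*} [Group L0] [Finite L0]
    (C0 : Subgroup L0) (hC : Cfsg.IsFrobeniusComplement C0) {H : Type*} [Group H] (e : H ≃* C0) :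
    ∃ (L : Type) (_ : Group L) (_ : Finite L) (C : Subgroup L),
      Cfsg.IsFrobeniusComplement C ∧ Nonempty (H ≃* C) ∧ C.index = C0.index := by
  have hsmall : Small.{0} L0 := Countable.toSmall L0
  let f : L0 ≃* Shrink.{0} L0 := (Shrink.mulEquiv : Shrink.{0} L0 ≃* L0).symm
  have hfin : Finite (Shrink.{0} L0) := Finite.of_equiv L0 (equivShrink.{0} L0)
  exact ⟨Shrink.{0} L0, inferInstance, hfin, C0.map f.toMonoidHom,
    isFrobeniusComplement_map_equiv f hC, ⟨e.trans (f.subgroupMap C0)⟩,
    Subgroup.index_map_equiv C0 f⟩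

/-- A fixed-point-free action of `H` on `N` gives a Frobenius group with complement `H` whose
kernel has as many elements as `N`. -/
theorem exists_frobeniusComplement_of_fpf_card {H N : Type*} [Group H] [Finite H] [Nontrivial H]
    [Group N] [Finite N] [Nontrivial N] (φ : H →* MulAut N)
    (hfpf : ∀ h : H, h ≠ 1 → ∀ n : N, φ h n = n → n = 1) :
    ∃ (L : Type) (_ : Group L) (_ : Finite L) (C : Subgroup L),
      Cfsg.IsFrobeniusComplement C ∧ Nonempty (H ≃* C) ∧
        Nat.card (Cfsg.frobeniusKernel C) = Nat.card N := by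
  have : Finite (N ⋊[φ] H) := Finite.of_equiv _ SemidirectProduct.equivProd.symm
  have hmem : ∀ g : N ⋊[φ] H, g ∈ (SemidirectProduct.inr : H →* N ⋊[φ] H).range ↔ g.left = 1 := by
    intro g
    constructor
    · rintro ⟨h, rfl⟩; rfl
    · intro hg
      refine ⟨g.right, ?_⟩
      ext <;> simp [hg]
  have hC : Cfsg.IsFrobeniusComplement (SemidirectProduct.inr : H →* N ⋊[φ] H).range := by
    rw [isFrobeniusComplement_iff]
    refine ⟨?_, ?_, ?_⟩
    · intro h
      obtain ⟨a, ha⟩ := exists_ne (1 : H)
      have : (SemidirectProduct.inr a : N ⋊[φ] H) ∈ (SemidirectProduct.inr : H →* N ⋊[φ] H).range :=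
        ⟨a, rfl⟩
      rw [h, Subgroup.mem_bot] at this
      apply ha
      have := congrArg SemidirectProduct.right this
      simpa using this
    · intro h
      obtain ⟨n, hn⟩ := exists_ne (1 : N)
      have : (SemidirectProduct.inl n : N ⋊[φ] H) ∈ (SemidirectProduct.inr : H →* N ⋊[φ] H).range := by
        rw [h]; trivial
      rw [hmem] at this
      exact hn this
    · intro g hg k hk hk2
      rw [hmem] at hg hk hk2
      have h1 : (φ g.right⁻¹) (g.left⁻¹ * (φ k.right) g.left) = 1 := by
        have := hk2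
        simp only [SemidirectProduct.mul_left, SemidirectProduct.inv_left,
          SemidirectProduct.inv_right, SemidirectProduct.mul_right, hk, map_one,
          map_mul, MulAut.mul_apply] at this
        simpa using this
      have h2 : (φ k.right) g.left = g.left := by
        have := (φ g.right⁻¹).injective (h1.trans (map_one _).symm)
        exact (inv_mul_eq_one.mp this).symm
      by_contra hk1
      apply hg
      apply hfpf k.right _ _ h2
      intro hr
      apply hk1
      ext <;> simp [hk, hr]
  have hidx : (SemidirectProduct.inr : H →* N ⋊[φ] H).range.index = Nat.card N := by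
    have h1 : Nat.card (N ⋊[φ] H) = Nat.card N * Nat.card H := by
      rw [Nat.card_congr SemidirectProduct.equivProd, Nat.card_prod]
    have h2 : Nat.card (SemidirectProduct.inr : H →* N ⋊[φ] H).range = Nat.card H :=
      (Nat.card_congr (MonoidHom.ofInjective SemidirectProduct.inr_injective).toEquiv).symm
    have h3 := Subgroup.card_mul_index (SemidirectProduct.inr : H →* N ⋊[φ] H).range
    rw [h1, h2, mul_comm] at h3
    exact Nat.eq_of_mul_eq_mul_right Nat.card_pos h3
  obtain ⟨L, i1, i2, C, hC', he, hi⟩ := exists_small_frobeniusComplement_index _ hC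
    (MonoidHom.ofInjective SemidirectProduct.inr_injective)
  exact ⟨L, i1, i2, C, hC', he, by rw [card_frobeniusKernel C hC', hi, hidx]⟩

/-- Module version with control of the kernel size. -/
theorem exists_frobeniusComplement_of_fpf_module_card {H R N : Type*} [Group H] [Finite H]
    [Nontrivial H] [Ring R] [AddCommGroup N] [Module R N] [Finite N] [Nontrivial N] (ψ : H →* Rˣ)
    (hfpf : ∀ h : H, h ≠ 1 → ∀ n : N, (ψ h : R) • n = n → n = 0) :
    ∃ (L : Type) (_ : Group L) (_ : Finite L) (C : Subgroup L),
      Cfsg.IsFrobeniusComplement C ∧ Nonempty (H ≃* C) ∧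
        Nat.card (Cfsg.frobeniusKernel C) = Nat.card N := by
  let φ : H →* MulAut (Multiplicative N) :=
    (MulAutMultiplicative N).symm.toMonoidHom.comp ((DistribMulAction.toAddAut Rˣ N).comp ψ)
  have hφ : ∀ (h : H) (n : N), φ h (Multiplicative.ofAdd n) = Multiplicative.ofAdd ((ψ h : R) • n) := by
    intro h n
    rfl
  apply exists_frobeniusComplement_of_fpf_card φ
  intro h hh n hn
  obtain ⟨n, rfl⟩ := Multiplicative.ofAdd.surjective n
  rw [hφ] at hn
  have := hfpf h hh n (Multiplicative.ofAdd.injective hn)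
  rw [this]; rfl

/-- A normal subgroup of odd order on which elements `i`, `j` with `i² = j²` of order two,
`j i j⁻¹ = i⁻¹`, act by conjugation such that `i²` fixes no non-identity element, has square
order. -/
theorem isSquare_card_of_quat_conj {L : Type*} [Group L] [Finite L] (N : Subgroup L) [hN : N.Normal]
    (i j : L) (hodd : Odd (Nat.card N)) (hz : (i * i) * (i * i) = 1) (hj : j * j = i * i)
    (hij : j * i * j⁻¹ = i⁻¹)
    (hfree : ∀ n ∈ N, (i * i) * n * (i * i)⁻¹ = n → n = 1) : IsSquare (Nat.card N) := by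
  have hinv : ∀ u ∈ N, (i * i) * u * (i * i)⁻¹ = u⁻¹ :=
    Helper13.inverts_of_fixedPointFree' N (i * i) hz (fun u hu => hN.conj_mem u hu _) hfree
  have hcomm : ∀ x y : N, x * y = y * x := by
    intro x y
    apply Subtype.ext
    have h1 := hinv (x.1 * y.1) (N.mul_mem x.2 y.2)
    have h2 := hinv x.1 x.2
    have h3 := hinv y.1 y.2
    have h4 : (i * i) * (x.1 * y.1) * (i * i)⁻¹ = x.1⁻¹ * y.1⁻¹ := by
      rw [← h2, ← h3]; group
    rw [h1, mul_inv_rev] at h4
    have h5 : (x.1 * y.1 : L) = ((x.1 : L)⁻¹ * (y.1 : L)⁻¹)⁻¹ := by rw [← h4]; group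
    rw [Subgroup.coe_mul, Subgroup.coe_mul, h5]; group
  let _ : CommGroup N := { (inferInstance : Group N) with mul_comm := hcomm }
  let I : Additive N →+ Additive N := MonoidHom.toAdditive (MulAut.conjNormal i : N ≃* N).toMonoidHom
  let J : Additive N →+ Additive N := MonoidHom.toAdditive (MulAut.conjNormal j : N ≃* N).toMonoidHom
  have hI : ∀ x : N, ((MulAut.conjNormal i : N ≃* N) x : L) = i * x * i⁻¹ := fun x => rfl
  have hJ : ∀ x : N, ((MulAut.conjNormal j : N ≃* N) x : L) = j * x * j⁻¹ := fun x => rfl
  have hcard : Nat.card (Additive N) = Nat.card N := rfl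
  rw [← hcard]
  apply isSquare_card_of_quat I J
  · intro x
    show Additive.ofMul ((MulAut.conjNormal i : N ≃* N) ((MulAut.conjNormal i : N ≃* N) x.toMul))
      = Additive.ofMul (x.toMul)⁻¹
    congr 1
    apply Subtype.ext
    rw [hI, hI, Subgroup.coe_inv, ← hinv _ x.toMul.2]
    group
  · intro x
    show Additive.ofMul ((MulAut.conjNormal j : N ≃* N) ((MulAut.conjNormal j : N ≃* N) x.toMul))
      = Additive.ofMul (x.toMul)⁻¹
    congr 1
    apply Subtype.ext
    rw [hJ, hJ, Subgroup.coe_inv, ← hinv _ x.toMul.2, ← hj]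
    group
  · intro x
    show Additive.ofMul ((MulAut.conjNormal i : N ≃* N) ((MulAut.conjNormal j : N ≃* N) x.toMul))
      = Additive.ofMul ((MulAut.conjNormal j : N ≃* N) ((MulAut.conjNormal i : N ≃* N) x.toMul))⁻¹
    congr 1
    apply Subtype.ext
    rw [hI, hJ, Subgroup.coe_inv, hJ, hI]
    have h1 := hinv _ x.toMul.2
    have e1 : j * i = i⁻¹ * j := by
      rw [← hij]; group
    have e2 : i * j = j * i * (i * i) := by
      calc i * j = i⁻¹ * (i * i) * j := by group
        _ = i⁻¹ * (j * j) * j := by rw [hj]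
        _ = (i⁻¹ * j) * (j * j) := by group
        _ = j * i * (i * i) := by rw [← e1, hj]
    calc i * (j * (x.toMul : L) * j⁻¹) * i⁻¹ = (i * j) * (x.toMul : L) * (i * j)⁻¹ := by group
      _ = (j * i) * ((i * i) * (x.toMul : L) * (i * i)⁻¹) * (j * i)⁻¹ := by rw [e2]; group
      _ = (j * i) * (x.toMul : L)⁻¹ * (j * i)⁻¹ := by rw [h1]
      _ = (j * (i * (x.toMul : L) * i⁻¹) * j⁻¹)⁻¹ := by group
  · rw [hcard]; exact hodd

end Cfsg.Agent.Lib.Helper71
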