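import Mathlib
import Cfsg.Agent.Lib.Helper67.SylowLemmas
import Cfsg.Agent.Lib.Helper71.ClassSize
import Cfsg.Agent.Lib.Helper71.ClassSplit

/-!
Groups whose two largest conjugacy class sizes are coprime (Bianchi-Gillio-Casolo):
the non-central elements split into those of the largest class size and those of class
size prime to it, so that `ClassSplit` applies.
-/

set_option autoImplicit false

namespace Cfsg.Agent.Lib.Helper71

variable {G : Type*} [Group G]

local notation:max "𝔠(" g ")" => Subgroup.index (Subgroup.centralizer ({g} : Set _))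

theorem le_of_le_of_index_eq [Finite G] {H L : Subgroup G} (hle : H ≤ L)
    (hidx : H.index = L.index) : L ≤ H := by
  have h1 := Subgroup.relIndex_mul_index hle
  rw [hidx] at h1
  have hpos : 0 < L.index := Nat.pos_of_ne_zero Subgroup.index_ne_zero_of_finite
  have h2 : H.relIndex L = 1 := Nat.eq_of_mul_eq_mul_right hpos (by rw [h1, one_mul])
  exact Subgroup.relIndex_eq_one.mp h2

theorem cz_le_cz_pow (y : G) (s : ℕ) :
    Subgroup.centralizer ({y} : Set G) ≤ Subgroup.centralizer ({y ^ s} : Set G) := by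
  intro t ht
  rw [mem_cz] at ht ⊢
  exact ((show Commute t y from ht).pow_right s).eq

theorem cz_central_mul {z : G} (hz : z ∈ Subgroup.center G) (k : G) :
    Subgroup.centralizer ({z * k} : Set G) = Subgroup.centralizer ({k} : Set G) := by
  have hz' := Subgroup.mem_center_iff.mp hz
  ext t
  rw [mem_cz, mem_cz]
  constructor
  · intro h
    apply mul_left_cancel (a := z)
    rw [← mul_assoc, ← hz' t, mul_assoc, h, mul_assoc]
  · intro h
    rw [← mul_assoc, hz' t, mul_assoc, h, mul_assoc]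

/-- the commutator map `k ↦ k⁻¹ (w k w⁻¹)` -/
def th (w k : G) : G := k⁻¹ * (w * k * w⁻¹)

theorem th_mem (K : Subgroup G) [K.Normal] (w : G) {k : G} (hk : k ∈ K) : th w k ∈ K :=
  K.mul_mem (K.inv_mem hk) (Subgroup.Normal.conj_mem inferInstance k hk w)

theorem th_mul (K : Subgroup G) [K.Normal] (hK : ∀ a ∈ K, ∀ b ∈ K, a * b = b * a) (w : G)
    {a b : G} (ha : a ∈ K) (hb : b ∈ K) : th w (a * b) = th w a * th w b := by
  have h1 := hK _ (K.inv_mem hb) _ (th_mem K w ha)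
  unfold th at h1 ⊢
  calc (a * b)⁻¹ * (w * (a * b) * w⁻¹) = b⁻¹ * (a⁻¹ * (w * a * w⁻¹)) * (w * b * w⁻¹) := by group
    _ = a⁻¹ * (w * a * w⁻¹) * b⁻¹ * (w * b * w⁻¹) := by rw [h1]
    _ = a⁻¹ * (w * a * w⁻¹) * (b⁻¹ * (w * b * w⁻¹)) := by group

theorem th_one (w : G) : th w 1 = 1 := by unfold th; group

theorem th_inv (K : Subgroup G) [K.Normal] (hK : ∀ a ∈ K, ∀ b ∈ K, a * b = b * a) (w : G)
    {a : G} (ha : a ∈ K) : th w a⁻¹ = (th w a)⁻¹ := by
  have h := th_mul K hK w ha (K.inv_mem ha)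
  rw [mul_inv_cancel, th_one] at h
  exact eq_inv_of_mul_eq_one_right h.symm

theorem th_eq_one_iff (w k : G) : th w k = 1 ↔ k * w = w * k := by
  unfold th
  constructor
  · intro h
    have h1 : w * k * w⁻¹ = k := by
      calc w * k * w⁻¹ = k * (k⁻¹ * (w * k * w⁻¹)) := by group
        _ = k := by rw [h, mul_one]
    calc k * w = (w * k * w⁻¹) * w := by rw [h1]
      _ = w * k := by group
  · intro h
    calc k⁻¹ * (w * k * w⁻¹) = k⁻¹ * (k * w) * w⁻¹ := by rw [h]; group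
      _ = 1 := by group

theorem th_fix [Finite G] (K : Subgroup G) [K.Normal] {w : G} {N : ℕ}
    (hw : w ^ N ∈ Subgroup.center G) (hN : N.Coprime (Nat.card K)) {k : G} (hk : k ∈ K)
    (hfix : th w k * w = w * th w k) : th w k = 1 := by
  have hd : th w k ∈ K := th_mem K w hk
  have hind : ∀ i : ℕ, w ^ i * k * (w ^ i)⁻¹ = k * th w k ^ i := by
    intro i
    induction i with
    | zero => simp
    | succ i ih =>
      have hc : w * th w k ^ i * w⁻¹ = th w k ^ i := by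
        have hcm : Commute w (th w k ^ i) := (show Commute w (th w k) from hfix.symm).pow_right i
        calc w * th w k ^ i * w⁻¹ = th w k ^ i * w * w⁻¹ := by rw [hcm.eq]
          _ = th w k ^ i := by group
      have hk' : w * k * w⁻¹ = k * th w k := by unfold th; group
      calc w ^ (i + 1) * k * (w ^ (i + 1))⁻¹ = w * (w ^ i * k * (w ^ i)⁻¹) * w⁻¹ := by
            rw [pow_succ']; group
        _ = w * (k * th w k ^ i) * w⁻¹ := by rw [ih]
        _ = (w * k * w⁻¹) * (w * th w k ^ i * w⁻¹) := by group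
        _ = k * th w k * th w k ^ i := by rw [hc, hk']
        _ = k * th w k ^ (i + 1) := by rw [pow_succ', mul_assoc]
  have h1 := hind N
  have h2 : w ^ N * k * (w ^ N)⁻¹ = k := by
    have h := Subgroup.mem_center_iff.mp hw k
    rw [← h]; group
  rw [h2] at h1
  have h3 : th w k ^ N = 1 := by
    have h := mul_left_cancel (a := k) (b := 1) (c := th w k ^ N) (by rw [mul_one]; exact h1)
    exact h.symm
  have h4 : th w k ^ Nat.card K = 1 :=
    congrArg Subtype.val (pow_card_eq_one' (G := K) (x := ⟨th w k, hd⟩))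
  have h5 := mem_of_pow_mem_of_coprime' (⊥ : Subgroup G) hN (v := th w k)
    (by rw [h3]; exact Subgroup.one_mem _) (by rw [h4]; exact Subgroup.one_mem _)
  exact Subgroup.mem_bot.mp h5

/-- coprime action on an abelian normal subgroup: `K = C_K(w) [K, w]` -/
theorem exists_decomp [Finite G] (K : Subgroup G) [K.Normal]
    (hK : ∀ a ∈ K, ∀ b ∈ K, a * b = b * a) {w : G} {N : ℕ}
    (hw : w ^ N ∈ Subgroup.center G) (hN : N.Coprime (Nat.card K)) {x : G} (hx : x ∈ K) :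
    ∃ x₁ ∈ K, ∃ k' ∈ K, x₁ * w = w * x₁ ∧ x = x₁ * th w k' := by
  let R : Set G := {d | ∃ k ∈ K, d = th w k}
  have hR : ∀ d ∈ R, th w d ∈ R := by
    rintro d ⟨k, hk, rfl⟩
    exact ⟨th w k, th_mem K w hk, rfl⟩
  let g : R → R := fun r => ⟨th w r.1, hR r.1 r.2⟩
  have hinj : Function.Injective g := by
    rintro ⟨_, a, ha, rfl⟩ ⟨_, b, hb, rfl⟩ hab
    have h1 : th w (th w a) = th w (th w b) := congrArg Subtype.val hab
    have hta := th_mem K w ha
    have htb := th_mem K w hb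
    have h2 : th w (th w a * (th w b)⁻¹) = 1 := by
      rw [th_mul K hK w hta (K.inv_mem htb), th_inv K hK w htb, h1, mul_inv_cancel]
    have h3 : th w a * (th w b)⁻¹ = th w (a * b⁻¹) := by
      rw [th_mul K hK w ha (K.inv_mem hb), th_inv K hK w hb]
    rw [h3] at h2
    have h4 := th_fix K hw hN (K.mul_mem ha (K.inv_mem hb)) ((th_eq_one_iff w _).mp h2)
    rw [← h3] at h4
    exact Subtype.ext (mul_inv_eq_one.mp h4)
  obtain ⟨⟨_, k', hk', rfl⟩, hr⟩ := Finite.surjective_of_injective hinj ⟨th w x, x, hx, rfl⟩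
  have h1 : th w (th w k') = th w x := congrArg Subtype.val hr
  have htk := th_mem K w hk'
  refine ⟨x * (th w k')⁻¹, K.mul_mem hx (K.inv_mem htk), k', hk', ?_, by group⟩
  rw [← th_eq_one_iff, th_mul K hK w hx (K.inv_mem htk), th_inv K hK w htk, h1, mul_inv_cancel]

/-- the orbit counting step: if `x = x₁ θ(k')` with `x₁ ∈ C_K(w)` and `θ(k') ≠ 1`, then
`C(x₁) ∩ C(w)` is smaller than `C(x)` -/
theorem card_lt_of_decomp [Finite G] (K : Subgroup G) [K.Normal]
    (hK : ∀ a ∈ K, ∀ b ∈ K, a * b = b * a) {w : G} {N : ℕ}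
    (hw : w ^ N ∈ Subgroup.center G) (hN : N.Coprime (Nat.card K)) {x₁ k' : G}
    (hx₁ : x₁ ∈ K) (hk' : k' ∈ K) (hd : th w k' ≠ 1) :
    Nat.card (Subgroup.centralizer ({x₁} : Set G) ⊓ Subgroup.centralizer ({w} : Set G) :
        Subgroup G) <
      Nat.card (Subgroup.centralizer ({x₁ * th w k'} : Set G)) := by
  classical
  obtain ⟨d, hd_def⟩ : ∃ d, d = th w k' := ⟨_, rfl⟩
  rw [← hd_def] at hd ⊢
  obtain ⟨E, hE⟩ : ∃ E : Subgroup G,
      E = Subgroup.centralizer ({x₁} : Set G) ⊓ Subgroup.centralizer ({w} : Set G) := ⟨_, rfl⟩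
  rw [← hE]
  have hdK : d ∈ K := hd_def ▸ th_mem K w hk'
  have hEw : ∀ e ∈ E, e * w = w * e := fun e he => mem_cz.mp (hE ▸ he).2
  have hEx : ∀ e ∈ E, e * x₁ = x₁ * e := fun e he => mem_cz.mp (hE ▸ he).1
  -- conjugates of `d` under `E` are values of `θ`
  have hconj : ∀ e ∈ E, e * d * e⁻¹ = th w (e * k' * e⁻¹) := by
    intro e he
    have h := hEw e he
    have h' : w⁻¹ * e⁻¹ = e⁻¹ * w⁻¹ := by rw [← mul_inv_rev, ← mul_inv_rev, h]
    rw [hd_def]
    unfold th
    calc e * (k'⁻¹ * (w * k' * w⁻¹)) * e⁻¹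
        = e * k'⁻¹ * e⁻¹ * ((e * w) * k' * (w⁻¹ * e⁻¹)) := by group
      _ = e * k'⁻¹ * e⁻¹ * ((w * e) * k' * (e⁻¹ * w⁻¹)) := by rw [h, h']
      _ = (e * k' * e⁻¹)⁻¹ * (w * (e * k' * e⁻¹) * w⁻¹) := by group
  have hconjK : ∀ e : G, e * k' * e⁻¹ ∈ K := fun e =>
    Subgroup.Normal.conj_mem inferInstance k' hk' e
  -- an element of `E` which is a quotient of two conjugates of `d` is trivial
  have hkey : ∀ e ∈ E, ∀ e' ∈ E, ∀ f ∈ E, (e' * d * e'⁻¹)⁻¹ * (e * d * e⁻¹) = f →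
      e * d * e⁻¹ = e' * d * e'⁻¹ := by
    intro e he e' he' f hf hff
    rw [hconj e he, hconj e' he', ← th_inv K hK w (hconjK e'),
      ← th_mul K hK w (K.inv_mem (hconjK e')) (hconjK e)] at hff
    have h1 := th_fix K hw hN (K.mul_mem (K.inv_mem (hconjK e')) (hconjK e))
      (by rw [hff]; exact hEw f hf)
    rw [th_mul K hK w (K.inv_mem (hconjK e')) (hconjK e), th_inv K hK w (hconjK e'),
      ← hconj e he, ← hconj e' he'] at h1
    exact (inv_mul_eq_one.mp h1).symm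
  -- a section of the orbit map
  let σ : G → G := fun ω => if h : ∃ e ∈ E, e * d * e⁻¹ = ω then Classical.choose h else 1
  have hσ : ∀ e ∈ E, σ (e * d * e⁻¹) ∈ E ∧
      σ (e * d * e⁻¹) * d * (σ (e * d * e⁻¹))⁻¹ = e * d * e⁻¹ := by
    intro e he
    have h : ∃ e' ∈ E, e' * d * e'⁻¹ = e * d * e⁻¹ := ⟨e, he, rfl⟩
    simp only [σ, dif_pos h]
    exact Classical.choose_spec h
  have hxd : x₁ * d ∈ K := K.mul_mem hx₁ hdK
  have hKc : ∀ κ ∈ K, κ ∈ Subgroup.centralizer ({x₁ * d} : Set G) := fun κ hκ =>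
    mem_cz.mpr (hK κ hκ _ hxd)
  have hfmem : ∀ e ∈ E, (σ (e * d * e⁻¹))⁻¹ * e ∈ Subgroup.centralizer ({x₁ * d} : Set G) := by
    intro e he
    obtain ⟨h1, h2⟩ := hσ e he
    have hfE : (σ (e * d * e⁻¹))⁻¹ * e ∈ E := E.mul_mem (E.inv_mem h1) he
    have hfx := hEx _ hfE
    have hfd : (σ (e * d * e⁻¹))⁻¹ * e * d = d * ((σ (e * d * e⁻¹))⁻¹ * e) := by
      calc (σ (e * d * e⁻¹))⁻¹ * e * d = (σ (e * d * e⁻¹))⁻¹ * (e * d * e⁻¹) * e := by group
        _ = (σ (e * d * e⁻¹))⁻¹ * (σ (e * d * e⁻¹) * d * (σ (e * d * e⁻¹))⁻¹) * e := by rw [h2]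
        _ = d * ((σ (e * d * e⁻¹))⁻¹ * e) := by group
    rw [mem_cz]
    calc (σ (e * d * e⁻¹))⁻¹ * e * (x₁ * d) = ((σ (e * d * e⁻¹))⁻¹ * e * x₁) * d :=
          (mul_assoc _ _ _).symm
      _ = x₁ * ((σ (e * d * e⁻¹))⁻¹ * e) * d := by rw [hfx]
      _ = x₁ * ((σ (e * d * e⁻¹))⁻¹ * e * d) := mul_assoc _ _ _
      _ = x₁ * (d * ((σ (e * d * e⁻¹))⁻¹ * e)) := by rw [hfd]
      _ = x₁ * d * ((σ (e * d * e⁻¹))⁻¹ * e) := (mul_assoc _ _ _).symm
  let Φ : E → Subgroup.centralizer ({x₁ * d} : Set G) := fun e =>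
    ⟨(e.1 * d * e.1⁻¹) * ((σ (e.1 * d * e.1⁻¹))⁻¹ * e.1),
      Subgroup.mul_mem _ (hKc _ (Subgroup.Normal.conj_mem inferInstance d hdK e.1))
        (hfmem e.1 e.2)⟩
  have hinj : Function.Injective Φ := by
    rintro ⟨e, he⟩ ⟨e', he'⟩ hee
    have h1 : (e * d * e⁻¹) * ((σ (e * d * e⁻¹))⁻¹ * e) =
        (e' * d * e'⁻¹) * ((σ (e' * d * e'⁻¹))⁻¹ * e') := congrArg Subtype.val hee
    have hf : (σ (e * d * e⁻¹))⁻¹ * e ∈ E := E.mul_mem (E.inv_mem (hσ e he).1) he
    have hf' : (σ (e' * d * e'⁻¹))⁻¹ * e' ∈ E := E.mul_mem (E.inv_mem (hσ e' he').1) he'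
    have h2 : (e' * d * e'⁻¹)⁻¹ * (e * d * e⁻¹) =
        ((σ (e' * d * e'⁻¹))⁻¹ * e') * ((σ (e * d * e⁻¹))⁻¹ * e)⁻¹ := by
      calc (e' * d * e'⁻¹)⁻¹ * (e * d * e⁻¹)
          = (e' * d * e'⁻¹)⁻¹ * ((e * d * e⁻¹) * ((σ (e * d * e⁻¹))⁻¹ * e)) *
              ((σ (e * d * e⁻¹))⁻¹ * e)⁻¹ := by group
        _ = (e' * d * e'⁻¹)⁻¹ * ((e' * d * e'⁻¹) * ((σ (e' * d * e'⁻¹))⁻¹ * e')) *
              ((σ (e * d * e⁻¹))⁻¹ * e)⁻¹ := by rw [h1]
        _ = ((σ (e' * d * e'⁻¹))⁻¹ * e') * ((σ (e * d * e⁻¹))⁻¹ * e)⁻¹ := by group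
    have h3 := hkey e he e' he' _ (E.mul_mem hf' (E.inv_mem hf)) h2
    rw [h3] at h1
    have h4 := mul_left_cancel (mul_left_cancel h1)
    exact Subtype.ext h4
  have hnot : (1 : Subgroup.centralizer ({x₁ * d} : Set G)) ∉ Set.range Φ := by
    rintro ⟨⟨e, he⟩, hee⟩
    have h1 : (e * d * e⁻¹) * ((σ (e * d * e⁻¹))⁻¹ * e) = 1 := congrArg Subtype.val hee
    have hf : (σ (e * d * e⁻¹))⁻¹ * e ∈ E := E.mul_mem (E.inv_mem (hσ e he).1) he
    -- `e d e⁻¹` lies in `E`, so it is a fixed value of `θ`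
    have h3 : e * d * e⁻¹ = ((σ (e * d * e⁻¹))⁻¹ * e)⁻¹ := eq_inv_of_mul_eq_one_left h1
    have h4 : e * d * e⁻¹ ∈ E := by rw [h3]; exact E.inv_mem hf
    have h5 := th_fix K hw hN (hconjK e) (by rw [← hconj e he]; exact hEw _ h4)
    rw [← hconj e he] at h5
    apply hd
    calc d = e⁻¹ * (e * d * e⁻¹) * e := by group
      _ = 1 := by rw [h5]; group
  have : Fintype E := Fintype.ofFinite _
  have : Fintype (Subgroup.centralizer ({x₁ * d} : Set G)) := Fintype.ofFinite _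
  rw [Nat.card_eq_fintype_card, Nat.card_eq_fintype_card]
  exact Fintype.card_lt_of_injective_of_notMem Φ hinj hnot

/-- `m > n > 1` coprime are the two largest class sizes, both attained -/
structure TwoLargest (G : Type*) [Group G] (m n : ℕ) : Prop where
  hmn : n < m
  hn : 1 < n
  hcop : m.Coprime n
  htop : ∀ z : G, 𝔠(z) ≤ m
  hsecond : ∀ z : G, 𝔠(z) < m → 𝔠(z) ≤ n
  ex_n : ∃ x : G, 𝔠(x) = n
  ex_m : ∃ y : G, 𝔠(y) = m

/-- the non-central elements of class size prime to `m` -/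
def tlA (G : Type*) [Group G] (m : ℕ) : Set G := {g | 𝔠(g) ≠ 1 ∧ (𝔠(g)).Coprime m}

/-- the elements of class size `m` -/
def tlB (G : Type*) [Group G] (m : ℕ) : Set G := {g | 𝔠(g) = m}

namespace TwoLargest

variable [Finite G] {m n : ℕ}

set_option linter.unusedSectionVars false

theorem eq_top_of_lt (h : TwoLargest G m n) {g : G} (hg : n < 𝔠(g)) : 𝔠(g) = m := by
  by_contra hne
  have := h.hsecond g (lt_of_le_of_ne (h.htop g) hne)
  omega

theorem classW (h : TwoLargest G m n) : ClassW (tlA G m) (tlB G m) where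
  conj1 := fun a ha g => by
    show _ ∧ _
    rw [cidx_of_mem_cls (conj_mem_cls a g)]; exact ha
  conj2 := fun y hy g => by
    show _ = _
    rw [cidx_of_mem_cls (conj_mem_cls y g)]; exact hy
  nc1 := fun a ha hz => ha.1 (cidx_eq_one_iff.mpr hz)
  nc2 := fun y hy hz => by
    have h1 : 𝔠(y) = 1 := cidx_eq_one_iff.mpr hz
    have h2 : 𝔠(y) = m := hy
    have := h.hmn
    have := h.hn
    omega
  cop := fun a ha y hy => by
    have h2 : 𝔠(y) = m := hy
    rw [h2]; exact ha.2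
  stab := fun a ha y hy g k => by
    have h2 : 𝔠(y) = m := hy
    have hc : (𝔠(a)).Coprime 𝔠(y) := by rw [h2]; exact ha.2
    have h3 := cidx_le_cidx_mul hc
    have h4 := h.htop (a * y)
    exact comm_mul_conj_mem_cls hc (by omega) g k
  ne1 := by
    obtain ⟨x, hx⟩ := h.ex_n
    exact ⟨x, by rw [hx]; exact (ne_of_gt h.hn), by rw [hx]; exact h.hcop.symm⟩
  ne2 := h.ex_m

/-- a class size dividing `m` is `1` or `m` -/
theorem dvd_top (h : TwoLargest G m n) {w : G} (hw : 𝔠(w) ∣ m) : 𝔠(w) = 1 ∨ 𝔠(w) = m := by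
  by_contra hcon
  push Not at hcon
  obtain ⟨hw1, hwm⟩ := hcon
  obtain ⟨x, hx⟩ := h.ex_n
  obtain ⟨y, hy⟩ := h.ex_m
  have hpos : 0 < 𝔠(w) := Nat.pos_of_ne_zero Subgroup.index_ne_zero_of_finite
  have hwn : (𝔠(w)).Coprime n := Nat.Coprime.coprime_dvd_left hw h.hcop
  have hle : 𝔠(w) ≤ n := h.hsecond w (lt_of_le_of_ne (h.htop w) hwm)
  have hn1 := h.hn
  have hmn := h.hmn
  have hne : 𝔠(w) ≠ n := by
    intro he
    rw [he, Nat.coprime_self] at hwn
    omega
  have hlt : 𝔠(w) < n := lt_of_le_of_ne hle hne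
  have cop' : (𝔠(w)).Coprime 𝔠(x) := by rw [hx]; exact hwn
  have h1 := cidx_le_cidx_mul cop'
  have h2 := cidx_mul_dvd cop'
  have e1 : 𝔠(w * x) = 𝔠(x) := by
    by_contra hne'
    have h3 : 𝔠(w * x) = m :=
      h.eq_top_of_lt (by rw [← hx]; exact lt_of_le_of_ne h1 (Ne.symm hne'))
    rw [h3, hx] at h2
    have h4 : m ∣ 𝔠(w) := h.hcop.dvd_of_dvd_mul_right h2
    have h5 := Nat.le_of_dvd hpos h4
    omega
  obtain ⟨Nw, hNwn, hNw, hNwd⟩ := exists_normal_comm cop' e1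
  have cop'' : (𝔠(x)).Coprime 𝔠(y) := by rw [hx, hy]; exact h.hcop.symm
  have e2 : 𝔠(x * y) = 𝔠(y) := by
    have h3 := cidx_le_cidx_mul cop''
    have h4 := h.htop (x * y)
    omega
  obtain ⟨Nx, hNxn, hNx, hNxd⟩ := exists_normal_comm cop'' e2
  rw [hx] at hNwd
  rw [hy] at hNxd
  have hca : (Nat.card Nx).Coprime 𝔠(x) := by
    rw [hx]; exact Nat.Coprime.coprime_dvd_left hNxd h.hcop
  have hcw : (Nat.card Nw).Coprime 𝔠(w) := Nat.Coprime.coprime_dvd_left hNwd hwn.symm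
  have hcc : (Nat.card Nx).Coprime (Nat.card Nw) :=
    Nat.Coprime.coprime_dvd_left hNxd (Nat.Coprime.coprime_dvd_right hNwd h.hcop)
  obtain ⟨d1, d2⟩ := cidx_dvd_mul_of_coprime_comm Nx Nw hNx hNw hca hcw hcc
  rw [hx] at d1
  have d3 : n * 𝔠(w) ∣ 𝔠(x * w) := Nat.Coprime.mul_dvd_of_dvd_of_dvd hwn.symm d1 d2
  have hpos' : 0 < 𝔠(x * w) := Nat.pos_of_ne_zero Subgroup.index_ne_zero_of_finite
  have h6 := Nat.le_of_dvd hpos' d3
  have h7 : n < 𝔠(x * w) := by
    calc n < n * 2 := by omega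
      _ ≤ n * 𝔠(w) := Nat.mul_le_mul_left n (by omega)
      _ ≤ 𝔠(x * w) := h6
  have h8 := h.eq_top_of_lt h7
  rw [h8] at d1
  have h9 : n = 1 := Nat.eq_one_of_dvd_coprimes h.hcop d1 dvd_rfl
  omega

/-- the Itô argument for an element of the largest class size -/
theorem cz_le_of_top (h : TwoLargest G m n) {y t : G} (hy : 𝔠(y) = m) (hyt : y * t = t * y)
    {α β : ℕ} (hαβ : α.Coprime β) (hyα : y ^ α ∈ Subgroup.center G)
    (htβ : t ^ β ∈ Subgroup.center G) :
    Subgroup.centralizer ({y} : Set G) ≤ Subgroup.centralizer ({t} : Set G) := by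
  have hle := centralizer_mul_le hyt hαβ hyα htβ
  have h1 : 𝔠(y) ∣ 𝔠(y * t) := Subgroup.index_dvd_of_le (hle.trans inf_le_left)
  have hpos : 0 < 𝔠(y * t) := Nat.pos_of_ne_zero Subgroup.index_ne_zero_of_finite
  have h2 := Nat.le_of_dvd hpos h1
  have h3 := h.htop (y * t)
  have h4 : 𝔠(y * t) = 𝔠(y) := by omega
  exact (le_of_le_of_index_eq (hle.trans inf_le_left) h4).trans (hle.trans inf_le_right)

/-- the Itô argument for an element of the second largest class size -/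
theorem cz_le_of_second (h : TwoLargest G m n) {x t : G} (hx : 𝔠(x) = n) (hxt : x * t = t * x)
    {α β : ℕ} (hαβ : α.Coprime β) (hxα : x ^ α ∈ Subgroup.center G)
    (htβ : t ^ β ∈ Subgroup.center G) :
    Subgroup.centralizer ({x} : Set G) ≤ Subgroup.centralizer ({t} : Set G) := by
  have hle := centralizer_mul_le hxt hαβ hxα htβ
  have h1 : 𝔠(x) ∣ 𝔠(x * t) := Subgroup.index_dvd_of_le (hle.trans inf_le_left)
  have hpos : 0 < 𝔠(x * t) := Nat.pos_of_ne_zero Subgroup.index_ne_zero_of_finite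
  have h2 := Nat.le_of_dvd hpos h1
  have hn1 := h.hn
  have h4 : 𝔠(x * t) = 𝔠(x) := by
    by_contra hne
    have h5 : 𝔠(x * t) = m := h.eq_top_of_lt (by omega)
    rw [h5, hx] at h1
    have h9 : n = 1 := Nat.eq_one_of_dvd_coprimes h.hcop h1 dvd_rfl
    omega
  exact (le_of_le_of_index_eq (hle.trans inf_le_left) h4).trans (hle.trans inf_le_right)

theorem card_K_dvd (h : TwoLargest G m n) : Nat.card (commSub (tlA G m)) ∣ m := by
  obtain ⟨y, hy⟩ := h.ex_m
  have h1 := h.classW.card_dvd (show y ∈ tlB G m from hy)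
  rwa [hy] at h1

theorem coprime_K (h : TwoLargest G m n) {q : ℕ} (hq : q.Prime) (hqn : q ∣ n) (j : ℕ) :
    (q ^ j).Coprime (Nat.card (commSub (tlA G m))) := by
  have hqm : ¬ q ∣ m := fun hd => hq.ne_one (Nat.eq_one_of_dvd_coprimes h.hcop hd hqn)
  exact Nat.Coprime.pow_left j
    ((Nat.Prime.coprime_iff_not_dvd hq).mpr (fun hd => hqm (hd.trans h.card_K_dvd)))

/-- elements of `C(x)` of order prime to `|K|` modulo the centre are central -/
theorem central_of_second (h : TwoLargest G m n) {x t : G} (hx : 𝔠(x) = n)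
    (hxK : x ^ Nat.card (commSub (tlA G m)) ∈ Subgroup.center G) (hxt : x * t = t * x) {e : ℕ}
    (he : e.Coprime (Nat.card (commSub (tlA G m)))) (hte : t ^ e ∈ Subgroup.center G) :
    t ∈ Subgroup.center G := by
  have hle := h.cz_le_of_second hx hxt he.symm hxK hte
  have hd : 𝔠(t) ∣ n := by rw [← hx]; exact Subgroup.index_dvd_of_le hle
  by_contra hz
  have ht1 : t ∈ tlA G m :=
    ⟨fun h1 => hz (cidx_eq_one_iff.mp h1), Nat.Coprime.coprime_dvd_left hd h.hcop.symm⟩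
  have h1 := h.classW.pow_mem_center ht1
  exact hz (mem_of_pow_mem_of_coprime' _ he hte h1)

/-- a good element: a `p`-element of the largest class size, `p ∣ n` -/
theorem exists_good (h : TwoLargest G m n) : ∃ u : G, GoodElt (tlA G m) (tlB G m) u ∧
    ∃ p j : ℕ, p.Prime ∧ p ∣ n ∧ u ^ (p ^ j) = 1 := by
  obtain ⟨x, hx⟩ := h.ex_n
  obtain ⟨y₀, hy₀⟩ := h.ex_m
  obtain ⟨p, hp, hpn⟩ := Nat.exists_prime_and_dvd (ne_of_gt h.hn)
  have : Fact p.Prime := ⟨hp⟩
  have hpm : ¬ p ∣ m := fun hd => hp.ne_one (Nat.eq_one_of_dvd_coprimes h.hcop hd hpn)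
  obtain ⟨P⟩ := (inferInstance : Nonempty (Sylow p G))
  have hP : ¬ (P : Subgroup G) ≤ Subgroup.centralizer ({x} : Set G) := fun hle =>
    P.not_dvd_index ((show p ∣ 𝔠(x) by rw [hx]; exact hpn).trans (Subgroup.index_dvd_of_le hle))
  obtain ⟨g, hgP, hg⟩ := SetLike.not_le_iff_exists.mp hP
  obtain ⟨j, hj⟩ := IsPGroup.iff_card.mp P.2
  have hgj : g ^ (p ^ j) = 1 := by
    rw [← hj]
    exact congrArg Subtype.val (pow_card_eq_one' (G := (P : Subgroup G)) (x := ⟨g, hgP⟩))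
  have hgZ : g ∉ Subgroup.center G := fun hz => hg (Subgroup.center_le_centralizer _ hz)
  obtain ⟨c, hc⟩ := Cfsg.Agent.Lib.Helper67.exists_conj_mem_centralizer_sylow P y₀
    (by rw [hy₀]; exact hpm)
  obtain ⟨y, hy_def⟩ : ∃ y, y = c * y₀ * c⁻¹ := ⟨_, rfl⟩
  rw [← hy_def] at hc
  have hy : 𝔠(y) = m := by
    rw [hy_def, ← hy₀]
    have h1 := cidx_of_mem_cls (conj_mem_cls y₀ c⁻¹)
    rwa [inv_inv] at h1
  have hyg : y * g = g * y := (Subgroup.mem_centralizer_iff.mp hc g hgP).symm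
  have key : ∃ u : G, ∃ i : ℕ, 𝔠(u) = m ∧ u ^ (p ^ i) = 1 := by
    obtain ⟨a, s, hps, hos⟩ :=
      Nat.exists_eq_pow_mul_and_not_dvd (orderOf_pos y).ne' p hp.ne_one
    have hv : (y ^ s) ^ (p ^ a) = 1 := by
      rw [← pow_mul, mul_comm, ← hos, pow_orderOf_eq_one]
    have hvd : 𝔠(y ^ s) ∣ m := by
      rw [← hy]; exact Subgroup.index_dvd_of_le (cz_le_cz_pow y s)
    rcases h.dvd_top hvd with h1 | h1
    · have hys : y ^ s ∈ Subgroup.center G := cidx_eq_one_iff.mp h1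
      have hcop : s.Coprime (p ^ j) :=
        Nat.Coprime.pow_right j ((Nat.Prime.coprime_iff_not_dvd hp).mpr hps).symm
      have hle := h.cz_le_of_top hy hyg hcop hys (by rw [hgj]; exact Subgroup.one_mem _)
      have hgd : 𝔠(g) ∣ m := by rw [← hy]; exact Subgroup.index_dvd_of_le hle
      rcases h.dvd_top hgd with h2 | h2
      · exact absurd (cidx_eq_one_iff.mp h2) hgZ
      · exact ⟨g, j, h2, hgj⟩
    · exact ⟨y ^ s, a, h1, hv⟩
  obtain ⟨u, i, hum, hui⟩ := key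
  refine ⟨u, ⟨hum, ⟨p ^ i, hui, h.coprime_K hp hpn i⟩, ?_⟩, p, i, hp, hpn, hui⟩
  intro y' hy'
  have hpg : IsPGroup p (Subgroup.zpowers u) := by
    have hdvd : orderOf u ∣ p ^ i := orderOf_dvd_of_pow_eq_one hui
    obtain ⟨k, -, hk⟩ := (Nat.dvd_prime_pow hp).mp hdvd
    exact IsPGroup.of_card (n := k) (by rw [Nat.card_zpowers, hk])
  obtain ⟨Q, hQ⟩ := hpg.exists_le_sylow
  have huQ : u ∈ (Q : Subgroup G) := hQ (Subgroup.mem_zpowers u)
  obtain ⟨c', hc'⟩ := Cfsg.Agent.Lib.Helper67.exists_conj_mem_centralizer_sylow Q y'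
    (by rw [show 𝔠(y') = m from hy']; exact hpm)
  refine ⟨c', ?_⟩
  rw [mem_cz]
  exact (Subgroup.mem_centralizer_iff.mp hc' u huQ).symm

theorem mem_ZK (h : TwoLargest G m n) {a : G} (ha : a ∈ tlA G m) :
    ∃ z ∈ Subgroup.center G, ∃ k ∈ commSub (tlA G m), a = z * k := by
  obtain ⟨u, hu, p, j, hp, hpn, huj⟩ := h.exists_good
  have hW := h.classW
  obtain ⟨k', hk', hbu, ha_eq⟩ := hW.exists_b hu ha
  have hak : a * k'⁻¹ = k'⁻¹ * a :=
    (mem_cz.mp (hW.le_cz ha ((commSub (tlA G m)).inv_mem hk'))).symm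
  have hbK : (a * k'⁻¹) ^ Nat.card (commSub (tlA G m)) ∈ Subgroup.center G := by
    rw [(show Commute a k'⁻¹ from hak).mul_pow]
    have h1 : k'⁻¹ ^ Nat.card (commSub (tlA G m)) = 1 :=
      congrArg Subtype.val (pow_card_eq_one' (G := commSub (tlA G m))
        (x := ⟨k'⁻¹, (commSub (tlA G m)).inv_mem hk'⟩))
    rw [h1, mul_one]; exact hW.pow_mem_center ha
  have hum : 𝔠(u) = m := hu.mem
  have hle := h.cz_le_of_top hum hbu.symm (h.coprime_K hp hpn j)
    (by rw [huj]; exact Subgroup.one_mem _) hbK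
  have hd : 𝔠(a * k'⁻¹) ∣ m := by rw [← hum]; exact Subgroup.index_dvd_of_le hle
  rcases h.dvd_top hd with h1 | h1
  · exact ⟨a * k'⁻¹, cidx_eq_one_iff.mp h1, k', hk', by group⟩
  · exfalso
    have h3 := hW.mul_mem_cls (show a * k'⁻¹ ∈ tlB G m from h1) hk' (self_mem_cls (a * k'⁻¹))
    rw [← ha_eq] at h3
    obtain ⟨g, hg⟩ := h3
    have h4 : a ∈ tlB G m := hg ▸ hW.conj2 _ h1 g
    exact hW.disjoint ha h4

/-- an element of `K` of class size `n` commutes with every non-central element of order prime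
to `|K|` modulo the centre which is not of the largest class size -/
theorem comm_of_not_top (h : TwoLargest G m n) {x : G} (hxK : x ∈ commSub (tlA G m))
    (hxn : 𝔠(x) = n) {w : G} {N : ℕ} (hwN : w ^ N ∈ Subgroup.center G)
    (hN : N.Coprime (Nat.card (commSub (tlA G m)))) (hwZ : w ∉ Subgroup.center G)
    (hw2 : 𝔠(w) ≠ m) : x * w = w * x := by
  have hW := h.classW
  have hn := hW.normalK
  have hKab : ∀ a ∈ commSub (tlA G m), ∀ b ∈ commSub (tlA G m), a * b = b * a :=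
    fun a ha b hb => hW.comm_K ha hb
  obtain ⟨x₁, hx₁, k', hk', hx₁w, hxeq⟩ := exists_decomp _ hKab hwN hN hxK
  by_cases hd : th w k' = 1
  · rw [hxeq, hd, mul_one]; exact hx₁w
  · exfalso
    have hlt := card_lt_of_decomp _ hKab hwN hN hx₁ hk' hd
    rw [← hxeq] at hlt
    have hn1 := h.hn
    have hEidx : n < (Subgroup.centralizer ({x₁} : Set G) ⊓
        Subgroup.centralizer ({w} : Set G)).index := by
      have e1 := Subgroup.card_mul_index (Subgroup.centralizer ({x₁} : Set G) ⊓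
        Subgroup.centralizer ({w} : Set G))
      have e2 := Subgroup.card_mul_index (Subgroup.centralizer ({x} : Set G))
      rw [hxn] at e2
      by_contra hcon
      push Not at hcon
      have hlt2 : Nat.card (Subgroup.centralizer ({x₁} : Set G) ⊓
            Subgroup.centralizer ({w} : Set G) : Subgroup G) *
          (Subgroup.centralizer ({x₁} : Set G) ⊓ Subgroup.centralizer ({w} : Set G)).index <
          Nat.card (Subgroup.centralizer ({x} : Set G)) * n :=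
        lt_of_le_of_lt (Nat.mul_le_mul_left _ hcon) (Nat.mul_lt_mul_of_pos_right hlt (by omega))
      rw [e1, e2] at hlt2
      exact lt_irrefl _ hlt2
    have hx₁K : x₁ ^ Nat.card (commSub (tlA G m)) ∈ Subgroup.center G := by
      have h1 : x₁ ^ Nat.card (commSub (tlA G m)) = 1 :=
        congrArg Subtype.val (pow_card_eq_one' (G := commSub (tlA G m)) (x := ⟨x₁, hx₁⟩))
      rw [h1]; exact Subgroup.one_mem _
    have hle := centralizer_mul_le hx₁w hN.symm hx₁K hwN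
    have h1 := Subgroup.index_dvd_of_le hle
    have hpos : 0 < 𝔠(x₁ * w) := Nat.pos_of_ne_zero Subgroup.index_ne_zero_of_finite
    have h2 := Nat.le_of_dvd hpos h1
    have h3 : 𝔠(x₁ * w) = m := h.eq_top_of_lt (by omega)
    have h4 : 𝔠(w) ∣ m := by
      rw [← h3]; exact Subgroup.index_dvd_of_le (hle.trans inf_le_right)
    rcases h.dvd_top h4 with h5 | h5
    · exact hwZ (cidx_eq_one_iff.mp h5)
    · exact hw2 h5

/-- every non-central element which is a `q`-element modulo the centre, `q ∣ n`, has the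
largest class size -/
theorem top_of_pelt (h : TwoLargest G m n) {g : G} (hgZ : g ∉ Subgroup.center G) {q j : ℕ}
    (hq : q.Prime) (hqn : q ∣ n) (hgq : g ^ (q ^ j) ∈ Subgroup.center G) : 𝔠(g) = m := by
  by_contra h2
  have hW := h.classW
  obtain ⟨x₀, hx₀⟩ := h.ex_n
  have hx₀A : x₀ ∈ tlA G m :=
    ⟨by rw [hx₀]; exact ne_of_gt h.hn, by rw [hx₀]; exact h.hcop.symm⟩
  obtain ⟨z, hz, k₀, hk₀, rfl⟩ := h.mem_ZK hx₀A
  have hk₀n : 𝔠(k₀) = n := by rw [← cz_central_mul hz k₀]; exact hx₀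
  have hcop := h.coprime_K hq hqn j
  have hcomm := h.comm_of_not_top hk₀ hk₀n hgq hcop hgZ h2
  have hk₀K : k₀ ^ Nat.card (commSub (tlA G m)) ∈ Subgroup.center G := by
    have h1 : k₀ ^ Nat.card (commSub (tlA G m)) = 1 :=
      congrArg Subtype.val (pow_card_eq_one' (G := commSub (tlA G m)) (x := ⟨k₀, hk₀⟩))
    rw [h1]; exact Subgroup.one_mem _
  exact hgZ (h.central_of_second hk₀n hk₀K hcomm hcop hgq)

/-- every non-central element has class size `m` or prime to `m` -/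
theorem cover (h : TwoLargest G m n) (w : G) :
    w ∈ Subgroup.center G ∨ w ∈ tlA G m ∨ w ∈ tlB G m := by
  by_contra hcon
  push Not at hcon
  obtain ⟨hwZ, hwA, hwB⟩ := hcon
  have hw1 : 𝔠(w) ≠ 1 := fun h1 => hwZ (cidx_eq_one_iff.mp h1)
  have hwm : 𝔠(w) ≠ m := hwB
  have hle : 𝔠(w) ≤ n := h.hsecond w (lt_of_le_of_ne (h.htop w) hwm)
  have hne : 𝔠(w) ≠ n := fun he => hwA ⟨hw1, by rw [he]; exact h.hcop.symm⟩
  have hlt : 𝔠(w) < n := lt_of_le_of_ne hle hne
  have hpos : 0 < 𝔠(w) := Nat.pos_of_ne_zero Subgroup.index_ne_zero_of_finite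
  have hmn := h.hmn
  obtain ⟨x, hx⟩ := h.ex_n
  have hZle : Subgroup.center G ≤ Subgroup.centralizer ({w} : Set G) :=
    Subgroup.center_le_centralizer _
  have h1 : (Subgroup.center G).relIndex (Subgroup.centralizer ({w} : Set G)) * 𝔠(w) =
      (Subgroup.center G).index := Subgroup.relIndex_mul_index hZle
  have h2 : n ∣ (Subgroup.center G).index := by
    rw [← hx]
    exact Subgroup.index_dvd_of_le (Subgroup.center_le_centralizer ({x} : Set G))
  have h3 : ¬ n.Coprime ((Subgroup.center G).relIndex (Subgroup.centralizer ({w} : Set G))) := by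
    intro hc
    rw [← h1] at h2
    have h4 : n ∣ 𝔠(w) := hc.dvd_of_dvd_mul_left h2
    have := Nat.le_of_dvd hpos h4
    omega
  obtain ⟨p, hp, hpn, hpr⟩ := Nat.Prime.not_coprime_iff_dvd.mp h3
  have : Fact p.Prime := ⟨hp⟩
  have hcard : Nat.card (Subgroup.centralizer ({w} : Set G) ⧸
      (Subgroup.center G).subgroupOf (Subgroup.centralizer ({w} : Set G))) =
      (Subgroup.center G).relIndex (Subgroup.centralizer ({w} : Set G)) := rfl
  obtain ⟨gb, hgb⟩ := exists_prime_orderOf_dvd_card'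
    (G := Subgroup.centralizer ({w} : Set G) ⧸
      (Subgroup.center G).subgroupOf (Subgroup.centralizer ({w} : Set G))) p
    (by rw [hcard]; exact hpr)
  obtain ⟨g, rfl⟩ := QuotientGroup.mk_surjective gb
  have hgp : (g : G) ^ p ∈ Subgroup.center G := by
    have h5 : (QuotientGroup.mk g : Subgroup.centralizer ({w} : Set G) ⧸
        (Subgroup.center G).subgroupOf (Subgroup.centralizer ({w} : Set G))) ^ p = 1 := by
      rw [← hgb]; exact pow_orderOf_eq_one _
    rw [← QuotientGroup.mk_pow, QuotientGroup.eq_one_iff, Subgroup.mem_subgroupOf] at h5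
    simpa using h5
  have hgZ : (g : G) ∉ Subgroup.center G := by
    intro hz
    have h5 : (QuotientGroup.mk g : Subgroup.centralizer ({w} : Set G) ⧸
        (Subgroup.center G).subgroupOf (Subgroup.centralizer ({w} : Set G))) = 1 :=
      (QuotientGroup.eq_one_iff g).mpr (Subgroup.mem_subgroupOf.mpr hz)
    rw [h5, orderOf_one] at hgb
    exact hp.ne_one hgb.symm
  have hgw : (g : G) * w = w * g := mem_cz.mp g.2
  have hgm : 𝔠((g : G)) = m :=
    h.top_of_pelt hgZ (j := 1) hp hpn (by rw [pow_one]; exact hgp)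
  obtain ⟨a, s, hps, hos⟩ := Nat.exists_eq_pow_mul_and_not_dvd (orderOf_pos w).ne' p hp.ne_one
  have hts : (w ^ (p ^ a)) ^ s = 1 := by rw [← pow_mul, ← hos, pow_orderOf_eq_one]
  have hgt : (g : G) * w ^ (p ^ a) = w ^ (p ^ a) * g :=
    ((show Commute (g : G) w from hgw).pow_right _).eq
  have hle2 := h.cz_le_of_top hgm hgt (α := p) (β := s)
    ((Nat.Prime.coprime_iff_not_dvd hp).mpr hps) hgp (by rw [hts]; exact Subgroup.one_mem _)
  have hd : 𝔠(w ^ (p ^ a)) ∣ m := by rw [← hgm]; exact Subgroup.index_dvd_of_le hle2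
  have hd2 : 𝔠(w ^ (p ^ a)) ∣ 𝔠(w) := Subgroup.index_dvd_of_le (cz_le_cz_pow w _)
  rcases h.dvd_top hd with h6 | h6
  · exact hwm (h.top_of_pelt hwZ hp hpn (cidx_eq_one_iff.mp h6))
  · rw [h6] at hd2
    have := Nat.le_of_dvd hpos hd2
    omega

theorem classSplit (h : TwoLargest G m n) : ClassSplit (tlA G m) (tlB G m) :=
  ⟨h.classW, h.cover⟩

end TwoLargest

end Cfsg.Agent.Lib.Helper71
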